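import Cfsg.Agent.H649.VanC.Descent
import Cfsg.Agent.ClassicalGeometry.OmegaIndex
import Cfsg.Agent.ClassicalGeometry.OrthDickson
import Cfsg.Agent.AutOrth.Main
import Cfsg.Agent.H477.HC.RowO

/-!
# Vanishing elements of the orthogonal groups: descent and automorphisms (helper649, for S4555 / S4559)

* `conj_omega` : if `x` fixes a hyperbolic pair then its class in `O(Q)` is its class in `Ω(Q)`;
* `cj` : conjugation by a semisimilarity;
* `Shp F k n s` : `s ^ n = 1`, `dim [V,s] < 2k`, no totally singular `k`-space is fixed pointwise, a hyperbolic pair is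
  fixed; this is stable under semisimilarities;
* `vz_orth` : if all automorphisms of `PΩ` are induced by semisimilarities and `χ ∈ Irr(O(Q))` vanishes on `Shp`,
  then `VZ (PΩ) x` for all `x` of this shape.
-/

set_option autoImplicit false

open scoped ComplexConjugate Matrix
open Cfsg

namespace Cfsg.Agent.H649.VanC

open Module Cfsg.Agent.Characters Cfsg.Agent.H477.HC Cfsg.Agent.H53.HC QuadraticMap
open Cfsg.Agent.ClassicalGeometry.Reflection

universe u

section Conj

variable {ι : Type} [Fintype ι] [DecidableEq ι] {K : Type u} [Field K]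

/-- the action of a matrix isometry -/
abbrev mv {Q : (ι → K) → K} (g : isometryGroup K Q) (v : ι → K) : ι → K := ((g : GL ι K) : Matrix ι ι K) *ᵥ v

theorem refl_comm (Q : QuadraticForm K (ι → K)) {x : isometryGroup K Q} {u : ι → K} (hu : Q u ≠ 0)
    (hx : mv x u = u) : reflIso Q u hu * x = x * reflIso Q u hu := by
  have h1 := conj_reflIso Q u hu x (by rw [show ((x : GL ι K) : Matrix ι ι K) *ᵥ u = u from hx]; exact hu)
  have h2 : reflIso Q (((x : GL ι K) : Matrix ι ι K) *ᵥ u)
      (by rw [show ((x : GL ι K) : Matrix ι ι K) *ᵥ u = u from hx]; exact hu) = reflIso Q u hu := by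
    have h3 : ((x : GL ι K) : Matrix ι ι K) *ᵥ u = u := hx
    congr 1
  rw [h2] at h1
  exact (mul_inv_eq_iff_eq_mul.1 h1).symm

theorem exists_val [Finite K] (Q : QuadraticForm K (ι → K)) {x : isometryGroup K Q} {e f : ι → K} (he : Q e = 0)
    (hf : Q f = 0) (hef : polar Q e f ≠ 0) (hxe : mv x e = e) (hxf : mv x f = f) (c : K) :
    ∃ u : ι → K, Q u = c ∧ mv x u = u := by
  refine ⟨e + (c / polar Q e f) • f, ?_, ?_⟩
  · have h1 : Q (e + (c / polar Q e f) • f) = Q e + Q ((c / polar Q e f) • f) +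
        polar Q e ((c / polar Q e f) • f) := by
      unfold polar; ring
    rw [h1, QuadraticMap.map_smul, he, hf, polar_smul_right, smul_eq_mul, smul_eq_mul]
    field_simp
    ring
  · rw [mv, Matrix.mulVec_add, Matrix.mulVec_smul]
    rw [show ((x : GL ι K) : Matrix ι ι K) *ᵥ e = e from hxe, show ((x : GL ι K) : Matrix ι ι K) *ᵥ f = f from hxf]

/-- **the class of `x` in `O(Q)` is its class in `Ω(Q)`** if `x` fixes a hyperbolic pair -/
theorem conj_omega [Finite K] (Qf : (ι → K) → K) (Q : QuadraticForm K (ι → K)) (hQf : Qf = ⇑Q)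
    (hQ : (polarBilin Q).Nondegenerate) (h5 : 5 ≤ Fintype.card ι) {x : isometryGroup K Qf} {e f : ι → K}
    (he : Qf e = 0) (hf : Qf f = 0) (hef : polar Qf e f ≠ 0) (hxe : mv x e = e) (hxf : mv x f = f)
    (g : isometryGroup K Qf) :
    ∃ n : Omega K Qf, g * x * g⁻¹ = (n : isometryGroup K Qf) * x * (n : isometryGroup K Qf)⁻¹ := by
  subst hQf
  have key : ∃ h : isometryGroup K Q, h * x = x * h ∧ g * h⁻¹ ∈ commutator (isometryGroup K Q) := by
    by_cases h2 : (2 : K) = 0
    · obtain ⟨u, hu, hxu⟩ := exists_val Q he hf hef hxe hxf 1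
      have hu0 : Q u ≠ 0 := by rw [hu]; exact one_ne_zero
      have : Nonempty ι := Fintype.card_pos_iff.1 (by omega)
      have hidx := Cfsg.Agent.ClassicalGeometry.OrthDickson.index_commutator_two Q h2 hQ (Or.inr (by omega))
      have hr := Cfsg.Agent.ClassicalGeometry.OrthDickson.refl_notMem_commutator Q hQ (Or.inr (by omega)) u hu0
      by_cases hg : g ∈ commutator (isometryGroup K Q)
      · exact ⟨1, by rw [one_mul, mul_one], by rwa [inv_one, mul_one]⟩
      · refine ⟨reflIso Q u hu0, refl_comm Q hu0 hxu, ?_⟩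
        rw [reflIso_inv, Subgroup.mul_mem_iff_of_index_two hidx]
        exact ⟨fun h => absurd h hg, fun h => absurd h hr⟩
    · obtain ⟨a, ha⟩ := FiniteField.exists_nonsquare
        (F := K) (Cfsg.Agent.ClassicalGeometry.Universal.ringChar_ne_two h2)
      have ha0 : a ≠ 0 := by rintro rfl; exact ha IsSquare.zero
      obtain ⟨v, hv, hxv⟩ := exists_val Q he hf hef hxe hxf 1
      obtain ⟨w, hw, hxw⟩ := exists_val Q he hf hef hxe hxf a
      have hv0 : Q v ≠ 0 := by rw [hv]; exact one_ne_zero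
      have hw0 : Q w ≠ 0 := by rw [hw]; exact ha0
      have h := Cfsg.Agent.ClassicalGeometry.OmegaIndex.abelianization_cases h2 Q hQ one_ne_zero v w hv0 hw0
        ⟨1, by rw [hv]⟩ (by rw [hw, one_mul]; exact ha) (Abelianization.of g)
      have hc : ∀ h : isometryGroup K Q, Abelianization.of g = Abelianization.of h →
          g * h⁻¹ ∈ commutator (isometryGroup K Q) := by
        intro h hgh
        have h1 : Abelianization.of (g * h⁻¹) = 1 := by
          rw [map_mul, map_inv, hgh, mul_inv_cancel]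
        exact (QuotientGroup.eq_one_iff _).1 h1
      rcases h with h | h | h | h
      · exact ⟨1, by rw [one_mul, mul_one], hc 1 (by rw [h, map_one])⟩
      · exact ⟨_, refl_comm Q hv0 hxv, hc _ h⟩
      · exact ⟨_, refl_comm Q hw0 hxw, hc _ h⟩
      · refine ⟨reflIso Q v hv0 * reflIso Q w hw0, ?_, hc _ (by rw [h, map_mul])⟩
        rw [mul_assoc, refl_comm Q hw0 hxw, ← mul_assoc, refl_comm Q hv0 hxv, mul_assoc]
  obtain ⟨h, hh, hm⟩ := key
  refine ⟨⟨g * h⁻¹, hm⟩, ?_⟩
  have h1 : h⁻¹ * x * h = x := by rw [mul_assoc, ← hh, inv_mul_cancel_left]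
  calc g * x * g⁻¹ = g * (h⁻¹ * x * h) * g⁻¹ := by rw [h1]
    _ = _ := by group

end Conj

section Semi

variable {ι : Type} [Fintype ι] [DecidableEq ι] {K : Type u} [Field K] {Q : (ι → K) → K}

/-- conjugation of a linear automorphism by a semilinear one -/
def cjL {σ : K ≃+* K} {T : (ι → K) ≃+ (ι → K)} (hT : ∀ (c : K) (v : ι → K), T (c • v) = σ c • T v)
    (g : (ι → K) ≃ₗ[K] (ι → K)) : (ι → K) ≃ₗ[K] (ι → K) where
  toFun v := T (g (T.symm v))
  invFun v := T (g.symm (T.symm v))
  left_inv v := by simp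
  right_inv v := by simp
  map_add' u v := by simp
  map_smul' c v := by
    have h1 : T.symm (c • v) = σ.symm c • T.symm v := by
      apply T.injective
      rw [AddEquiv.apply_symm_apply, hT, RingEquiv.apply_symm_apply, AddEquiv.apply_symm_apply]
    simp only [RingHom.id_apply]
    rw [h1, map_smul, hT, RingEquiv.apply_symm_apply]

theorem cjL_apply {σ : K ≃+* K} {T : (ι → K) ≃+ (ι → K)} (hT : ∀ (c : K) (v : ι → K), T (c • v) = σ c • T v)
    (g : (ι → K) ≃ₗ[K] (ι → K)) (v : ι → K) : cjL hT g (T v) = T (g v) := by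
  change T (g (T.symm (T v))) = _
  rw [AddEquiv.symm_apply_apply]

/-- conjugation of isometries by a semisimilarity -/
noncomputable def cj {σ : K ≃+* K} {μ : K} {T : (ι → K) ≃+ (ι → K)}
    (hT : ∀ (c : K) (v : ι → K), T (c • v) = σ c • T v) (hQ : ∀ v, Q (T v) = μ * σ (Q v)) :
    isometryGroup K Q →* isometryGroup K Q where
  toFun g := ⟨matE.symm (cjL hT (matE (g : GL ι K))), fun v _ => by
    have h1 : ∀ v, Q ((matE.symm (cjL hT (matE (g : GL ι K))) : Matrix ι ι K) *ᵥ v) = Q v := by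
      intro v
      rw [← matE_apply, MulEquiv.apply_symm_apply]
      obtain ⟨w, rfl⟩ := T.surjective v
      rw [cjL_apply, hQ, hQ]
      congr 2
      exact g.2 w w
    exact h1 v⟩
  map_one' := by
    apply Subtype.ext
    apply matE.injective
    change matE (matE.symm _) = _
    rw [MulEquiv.apply_symm_apply]
    ext1 v
    obtain ⟨w, rfl⟩ := T.surjective v
    rw [cjL_apply]
    simp
  map_mul' g h := by
    apply Subtype.ext
    apply matE.injective
    change matE (matE.symm _) = matE (matE.symm _ * matE.symm _)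
    rw [MulEquiv.apply_symm_apply, map_mul, MulEquiv.apply_symm_apply, MulEquiv.apply_symm_apply]
    ext1 v
    obtain ⟨w, rfl⟩ := T.surjective v
    rw [LinearEquiv.mul_apply, cjL_apply, cjL_apply, cjL_apply, Subgroup.coe_mul, map_mul, LinearEquiv.mul_apply]

theorem cj_mv {σ : K ≃+* K} {μ : K} {T : (ι → K) ≃+ (ι → K)}
    (hT : ∀ (c : K) (v : ι → K), T (c • v) = σ c • T v) (hQ : ∀ v, Q (T v) = μ * σ (Q v)) (g : isometryGroup K Q)
    (v : ι → K) : mv (cj hT hQ g) (T v) = T (mv g v) := by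
  change matE (matE.symm (cjL hT (matE (g : GL ι K)))) (T v) = _
  rw [MulEquiv.apply_symm_apply, cjL_apply]
  rfl

theorem cj_mem {σ : K ≃+* K} {μ : K} {T : (ι → K) ≃+ (ι → K)}
    (hT : ∀ (c : K) (v : ι → K), T (c • v) = σ c • T v) (hQ : ∀ v, Q (T v) = μ * σ (Q v)) {g : isometryGroup K Q}
    (hg : g ∈ Omega K Q) : cj hT hQ g ∈ Omega K Q := by
  have h1 : (commutator (isometryGroup K Q)).map (cj hT hQ) ≤ commutator (isometryGroup K Q) := by
    rw [commutator_def, Subgroup.map_commutator]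
    exact Subgroup.commutator_mono le_top le_top
  exact h1 (Subgroup.mem_map_of_mem _ hg)

end Semi

section Shape

variable {ι : Type} [Fintype ι] [DecidableEq ι] {K : Type u} [Field K]

/-- the shape of the elements -/
def Shp (F : CForm K (ι → K)) (k n : ℕ) (s : (ι → K) ≃ₗ[K] (ι → K)) : Prop :=
  s ^ n = 1 ∧ finrank K (LinearMap.range ((s : (ι → K) →ₗ[K] (ι → K)) - 1)) < 2 * k ∧
    (∀ W ∈ F.Om k, ∃ w ∈ W, s w ≠ w) ∧
    ∃ e f, F.Q e = 0 ∧ F.Q f = 0 ∧ F.B e f ≠ 0 ∧ s e = e ∧ s f = f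

variable {σ : K ≃+* K} {T : (ι → K) ≃+ (ι → K)}

/-- the preimage of a subspace under a semilinear map -/
def preT (hT : ∀ (c : K) (v : ι → K), T (c • v) = σ c • T v) (W : Submodule K (ι → K)) : Submodule K (ι → K) where
  carrier := {v | T v ∈ W}
  add_mem' {a b} ha hb := by
    change T (a + b) ∈ W
    rw [map_add]; exact W.add_mem ha hb
  zero_mem' := by
    change T 0 ∈ W
    rw [map_zero]; exact W.zero_mem
  smul_mem' c v hv := by
    change T (c • v) ∈ W
    rw [hT]; exact W.smul_mem _ hv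

theorem finrank_preT [Finite K] (hT : ∀ (c : K) (v : ι → K), T (c • v) = σ c • T v) (W : Submodule K (ι → K)) :
    finrank K (preT hT W) = finrank K W := by
  have h1 : Nat.card (preT hT W) = Nat.card W :=
    Nat.card_congr
      { toFun := fun v => ⟨T v, v.2⟩
        invFun := fun w => ⟨T.symm w, by
          change T (T.symm w) ∈ W
          rw [AddEquiv.apply_symm_apply]; exact w.2⟩
        left_inv := fun v => by simp
        right_inv := fun w => by simp }
  rw [Module.natCard_eq_pow_finrank (K := K), Module.natCard_eq_pow_finrank (K := K) (V := W)] at h1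
  exact Nat.pow_right_injective Finite.one_lt_card h1

theorem Shp.semi [Finite K] {F : CForm K (ι → K)} (hB : ∀ u v, F.B u v = F.Q (u + v) - F.Q u - F.Q v) {k n : ℕ}
    {s s' : (ι → K) ≃ₗ[K] (ι → K)} (h : Shp F k n s) {μ : K} (hμ : μ ≠ 0)
    (hT : ∀ (c : K) (v : ι → K), T (c • v) = σ c • T v) (hQ : ∀ v, F.Q (T v) = μ * σ (F.Q v))
    (hs : ∀ v, s' (T v) = T (s v)) : Shp F k n s' := by
  obtain ⟨h1, h2, h3, e, f, he, hf, hef, hse, hsf⟩ := h
  have hBT : ∀ u v, F.B (T u) (T v) = μ * σ (F.B u v) := by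
    intro u v
    rw [hB, hB, ← map_add, hQ, hQ, hQ, map_sub, map_sub]
    ring
  have hpow : ∀ j v, (s' ^ j) (T v) = T ((s ^ j) v) := by
    intro j
    induction j with
    | zero => intro v; simp
    | succ j ih => intro v; rw [pow_succ, LinearEquiv.mul_apply, hs, ih, pow_succ, LinearEquiv.mul_apply]
  refine ⟨?_, ?_, ?_, T e, T f, ?_, ?_, ?_, ?_, ?_⟩
  · ext1 v
    obtain ⟨w, rfl⟩ := T.surjective v
    rw [hpow, h1]
    rfl
  · have h4 : preT hT (LinearMap.range ((s' : (ι → K) →ₗ[K] (ι → K)) - 1)) =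
        LinearMap.range ((s : (ι → K) →ₗ[K] (ι → K)) - 1) := by
      ext v
      change T v ∈ LinearMap.range ((s' : (ι → K) →ₗ[K] (ι → K)) - 1) ↔ _
      rw [LinearMap.mem_range, LinearMap.mem_range]
      constructor
      · rintro ⟨y, hy⟩
        obtain ⟨w, rfl⟩ := T.surjective y
        refine ⟨w, T.injective ?_⟩
        rw [← hy]
        simp only [LinearMap.sub_apply, LinearEquiv.coe_coe, Module.End.one_apply, map_sub, hs]
      · rintro ⟨w, rfl⟩
        refine ⟨T w, ?_⟩
        simp only [LinearMap.sub_apply, LinearEquiv.coe_coe, Module.End.one_apply, map_sub, hs]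
    rw [← finrank_preT hT, h4]
    exact h2
  · intro W hW
    have hW' : preT hT W ∈ F.Om k := by
      refine ⟨?_, by rw [finrank_preT]; exact hW.2⟩
      refine ⟨fun v hv => ?_, fun u hu v hv => ?_⟩
      · have := hW.1.1 (T v) (show T v ∈ W from hv)
        rw [hQ] at this
        have h5 := (mul_eq_zero.1 this).resolve_left hμ
        exact (map_eq_zero σ).1 h5
      · have := hW.1.2 (T u) (show T u ∈ W from hu) (T v) (show T v ∈ W from hv)
        rw [hBT] at this
        have h5 := (mul_eq_zero.1 this).resolve_left hμ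
        exact (map_eq_zero σ).1 h5
    obtain ⟨w, hw, hw'⟩ := h3 _ hW'
    refine ⟨T w, hw, fun h => hw' ?_⟩
    rw [hs] at h
    exact T.injective h
  · rw [hQ, he, map_zero, mul_zero]
  · rw [hQ, hf, map_zero, mul_zero]
  · rw [hBT]
    exact mul_ne_zero hμ ((map_ne_zero σ).2 hef)
  · rw [hs, hse]
  · rw [hs, hsf]

end Shape

section Main

variable {ι : Type} [Fintype ι] [DecidableEq ι] {K : Type u} [Field K] [Finite K]

/-- **`VZ` in the orthogonal groups** -/
theorem vz_orth (F : CForm K (ι → K)) (hB : ∀ u v, F.B u v = F.Q (u + v) - F.Q u - F.Q v)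
    (Q : QuadraticForm K (ι → K)) (hFQ : F.Q = ⇑Q) (hQ : (polarBilin Q).Nondegenerate) (h5 : 5 ≤ Fintype.card ι)
    (haut : ∀ α : MulAut (POmega K F.Q), Cfsg.Agent.AutOrth.Main.Ind F.Q α) {k n : ℕ} {χ : F.iso → ℂ}
    (hχ : IsIrrCharacter F.iso χ) {Z : Kˣ → Prop}
    (hχz : ∀ (z : F.iso) (a : Kˣ), Z a → (∀ v, (z : (ι → K) ≃ₗ[K] (ι → K)) v = (a : K) • v) → χ z = χ 1)
    (hcen : ∀ z : Omega K F.Q, z ∈ Subgroup.center (Omega K F.Q) → ∃ a : Kˣ, Z a ∧ ∀ v, (omMat z).mulVec v = (a : K) • v)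
    (hv : ∀ s : F.iso, Shp F k n s → χ s = 0) {x : Omega K F.Q}
    (hx : Shp F k n (isoQuad F hB (x : isometryGroup K F.Q) : F.iso)) :
    H713.VZ (POmega K F.Q) (QuotientGroup.mk x) := by
  have hfin : Finite (isometryGroup K F.Q) := inferInstance
  refine vz_down (Omega K F.Q) (χ := χ ∘ (isoQuad F hB).toMonoidHom)
    (Core.isIrr_comp _ (isoQuad F hB).surjective hχ) (fun z hz => ?_)
    {x | Shp F k n (isoQuad F hB (x : isometryGroup K F.Q) : F.iso)} (fun y hy g => ?_) (fun y hy => hv _ hy)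
    (fun α y hy => ?_) x hx
  · obtain ⟨a, ha, h⟩ := hcen z hz
    rw [Function.comp_apply, Function.comp_apply, map_one]
    exact hχz _ a ha h
  · obtain ⟨h1, h2, h3, e, f, he, hf, hef, hse, hsf⟩ := hy
    refine conj_omega F.Q Q hFQ hQ h5 he hf ?_ hse hsf g
    rwa [hB] at hef
  · obtain ⟨σ, μ, T, ⟨hμ, hT, hQT⟩, hT'⟩ := haut α
    refine ⟨⟨cj hT hQT y, cj_mem hT hQT y.2⟩, ?_, ?_⟩
    · exact hy.semi hB hμ hT hQT fun v => cj_mv hT hQT _ v
    · exact hT' y _ fun v => cj_mv hT hQT _ v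

end Main

end Cfsg.Agent.H649.VanC
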